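import Cfsg.Agent.Lib.CNil.Lq
import Cfsg.Agent.Lib.Cop.S1V

/-! Coprime operator groups with nilpotent fixed point subgroup: the hypotheses of step 1. -/

set_option autoImplicit false

open Subgroup Cfsg CfsgLib.LAE CfsgLib.ZN CfsgLib.MinS CfsgLib.Cop Module
open scoped commutatorElement

universe u

namespace CfsgLib.CNil

variable {X : Type u} [Group X] [Finite X] {A G S H E Z : Subgroup X}

/-- `A` acts coprimely on `G` and `C_G(A)` is nilpotent. -/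
structure NC (A G : Subgroup X) : Prop where
  AG : A ≤ normalizer (G : Set X)
  cop : (Nat.card A).Coprime (Nat.card G)
  nil : Group.IsNilpotent (G ⊓ centralizer (A : Set X) : Subgroup X)

theorem nil_comm {C : Subgroup X} (hC : Group.IsNilpotent C) {x y : X} (hx : x ∈ C) (hy : y ∈ C) :
    ∃ m n, Commute (x ^ (2 * m + 1)) (y ^ 2 ^ n) := by
  obtain ⟨a, _, ⟨m, rfl⟩, e1⟩ := Nat.exists_eq_two_pow_mul_odd (orderOf_pos x).ne'
  obtain ⟨b, r, hr, e2⟩ := Nat.exists_eq_two_pow_mul_odd (orderOf_pos y).ne'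
  refine ⟨m, b, congrArg Subtype.val (Core.commute_of_coprime_orderOf_of_isNilpotent
    (x := (⟨_, pow_mem hx _⟩ : C)) (y := ⟨_, pow_mem hy _⟩) ?_)⟩
  rw [← orderOf_coe, ← orderOf_coe]
  refine (((Nat.coprime_two_left.2 hr).pow_left a).coprime_dvd_left
    (orderOf_dvd_of_pow_eq_one ?_)).coprime_dvd_right (orderOf_dvd_of_pow_eq_one ?_)
  · rw [← pow_mul, mul_comm, ← e1, pow_orderOf_eq_one]
  · rw [← pow_mul, ← e2, pow_orderOf_eq_one]

theorem NC.lift (h : NC A G) (ho : Odd (Nat.card A)) {K : Subgroup X} (hK : K ≤ G)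
    (hAK : A ≤ normalizer (K : Set X)) {g : X} (hg : g ∈ G) (hc : ∀ a ∈ A, ⁅g, a⁆ ∈ K) :
    ∃ k ∈ K, g⁻¹ * k ∈ G ⊓ centralizer (A : Set X) :=
  exists_cent_of_conj h.AG (disjoint_of_coprime_natCard h.cop).eq_bot hK
    (fun _ hW => CfsgLib.Coprime.exists_conj_mem_of_subset_mul hAK
      (h.cop.coprime_dvd_right (card_dvd_of_le hK)) (.inl (FT.odd_order_solvable ho)) hW) hg hc

section

variable {V : Type*} [AddCommGroup V] [Module (ZMod 2) V] [Finite V]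

omit [Finite V] in
theorem NC.lift_g (h : NC A G) (ho : Odd (Nat.card A)) (s : Sec (H ⊔ A) E Z V) (hH : H ≤ G)
    (hAH : A ≤ normalizer (H : Set X)) {y : GLv V} (hy : y ∈ s.im H)
    (hc : ∀ α ∈ s.im A, Commute α y) :
    ∃ c ∈ G ⊓ centralizer (A : Set X), c ∈ H ⊔ A ∧ s.ρ c = y := by
  obtain ⟨g, hg, hg', rfl⟩ := s.mem_im.1 hy
  have h1 : A ≤ normalizer (s.pre ⊥ : Set X) := fun a ha =>
    s.pre_le_normalizer (X := ⊤) (Y := ⊥) (le_normalizer_of_normal)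
      (s.mem_pre.2 ⟨le_sup_right (a := H) ha, mem_top _⟩)
  obtain ⟨k, hk, h2⟩ := h.lift ho (K := H ⊓ s.pre ⊥) (inf_le_left.trans hH)
    ((le_inf hAH h1).trans inf_normalizer_le_normalizer_inf) (hH hg) fun a ha => by
      have ha' : a ∈ H ⊔ A := le_sup_right (a := H) ha
      have h3 : ⁅g, a⁆ ∈ H := commutator_le_left_of_le_normalizer hAH (commutator_mem_commutator hg ha)
      refine mem_inf.2 ⟨h3, s.mem_pre.2 ⟨le_sup_left (b := A) h3, ?_⟩⟩
      rw [s.ρ_commutator hg' ha', mem_bot, commutatorElement_eq_one_iff_mul_comm]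
      exact (hc _ (s.ρ_mem_im ha ha')).eq.symm
  obtain ⟨k1, k2⟩ := s.mem_pre.1 hk.2
  refine ⟨_, inv_mem h2, inv_mem (mul_mem (inv_mem hg') k1), ?_⟩
  rw [s.ρ_inv (mul_mem (inv_mem hg') k1), s.ρ_mul _ (inv_mem hg') _ k1, mem_bot.1 k2, mul_one,
    s.ρ_inv hg', inv_inv]

omit [Finite V] in
theorem NC.lift_v (h : NC A G) (ho : Odd (Nat.card A)) (s : Sec (H ⊔ A) E Z V) (hE : E ≤ G) {u : V}
    (hu : ∀ α ∈ s.im A, α u = u) : ∃ e ∈ G ⊓ centralizer (A : Set X), e ∈ E ∧ s.π e = u := by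
  obtain ⟨e, he, rfl⟩ := s.surj u
  obtain ⟨k, hk, h2⟩ := h.lift ho (K := Z) (s.Z_le.trans hE) (fun a ha => by
    rw [← s.bak_bot]
    refine s.mem_normalizer_bak (le_sup_right (a := H) ha) fun v hv => ?_
    rw [(Submodule.mem_bot _).1 hv, map_zero]
    exact Submodule.zero_mem _) (hE he) fun a ha => by
      have ha' : a ∈ H ⊔ A := le_sup_right (a := H) ha
      rw [← commutatorElement_inv]
      exact inv_mem ((s.ρ_π_eq_iff ha' he).1 (hu _ (s.ρ_mem_im ha ha')))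
  have hk' := s.Z_le hk
  refine ⟨_, h2, mul_mem (inv_mem he) hk', ?_⟩
  rw [s.π_mul _ (inv_mem he) _ hk', s.π_inv he, (s.π_eq_zero k hk').2 hk, add_zero]

theorem NC.ln (h : NC A G) (h2 : 2 ∣ Nat.card G) (s : Sec (H ⊔ A) E Z V) (hH : H ≤ G) (hE : E ≤ G)
    (hAH : A ≤ normalizer (H : Set X)) : LN (s.im A) (s.im H) := by
  have ho : Odd (Nat.card A) := Nat.coprime_two_right.1 (h.cop.coprime_dvd_right h2)
  have z : ∀ {n : GLv V} (k : ℕ), Odd (orderOf n) → n ∈ zpowers (n ^ 2 ^ k) := fun k hn =>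
    mem_zpowers_pow_iff.2 ((Nat.coprime_two_left.2 hn).pow_left k)
  refine ⟨fun α hα => ?_, fun α hα y hy => ?_, fun p hp p2 n hn no c1 c2 => ?_,
    fun n hn no c1 u c2 => ?_⟩
  · obtain ⟨a, ha, ha', rfl⟩ := s.mem_im.1 hα
    exact ho.of_dvd_nat ((s.orderOf_ρ_dvd ha').trans (A.orderOf_dvd_natCard ha))
  · obtain ⟨a, ha, ha', rfl⟩ := s.mem_im.1 hα
    obtain ⟨g, hg, hg', rfl⟩ := s.mem_im.1 hy
    exact (h.cop.symm.coprime_dvd_right ((s.orderOf_ρ_dvd ha').trans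
      (A.orderOf_dvd_natCard ha))).coprime_dvd_left
        ((s.orderOf_ρ_dvd hg').trans (G.orderOf_dvd_natCard (hH hg)))
  · obtain ⟨x, hx, hx', rfl⟩ := h.lift_g ho s hH hAH hp c1
    obtain ⟨y, hy, hy', rfl⟩ := h.lift_g ho s hH hAH hn c2
    obtain ⟨m, k, c⟩ := nil_comm h.nil hx hy
    have e := congrArg s.ρ c.eq
    rw [s.ρ_mul _ (pow_mem hx' _) _ (pow_mem hy' _), s.ρ_mul _ (pow_mem hy' _) _ (pow_mem hx' _),
      s.ρ_pow hx', s.ρ_pow hy', pow_succ, pow_mul, pow_two, p2, one_pow, one_mul] at e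
    obtain ⟨j, hj⟩ := z k no
    rw [← hj]
    exact Commute.zpow_right e j
  · obtain ⟨y, hy, hy', rfl⟩ := h.lift_g ho s hH hAH hn c1
    obtain ⟨x, hx, hx', rfl⟩ := h.lift_v ho s hE c2
    obtain ⟨m, k, c⟩ := nil_comm h.nil hx hy
    have e1 : s.π (x ^ (2 * m + 1)) = s.π x := by
      rw [pow_succ, s.π_mul _ (pow_mem hx' _) _ hx', two_mul, pow_add,
        s.π_mul _ (pow_mem hx' _) _ (pow_mem hx' _), add_self_v, zero_add]
    have e := s.conj _ (pow_mem hy' (2 ^ k)) _ (pow_mem hx' (2 * m + 1))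
    rw [← c.eq, mul_inv_cancel_right, e1, s.ρ_pow hy'] at e
    exact mem_fx.1 (fx_le_zpowers (z k no) (mem_fx.2 e.symm))

end

theorem NC.noOm (h : NC A G) : NoOm A G := by
  intro H E Z V _ _ _ s F hH hE hAH hF hB hodd hn x hx
  have h2 : 2 ∣ Nat.card G := by
    refine Dvd.dvd.trans ?_ (card_dvd_of_le hE)
    rw [s.card_E]
    have := hx.rk ▸ Submodule.finrank_le (cm ⊤ x)
    exact Dvd.dvd.mul_left (dvd_pow_self 2 (by omega)) _
  exact (h.ln h2 s hH hE hAH).noOm hF hodd hn hB x hx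

/-- The strict inequality inside an invariant quadratic subgroup `B'`. -/
theorem NC.q3 (n : NC A G) (h : Sx A H E Z) (hH : H ≤ G) (hE : E ≤ G)
    (hs : Group.IsSolvable H) {B B' B₀ E₀ : Subgroup X} (hB : B ≤ B') (hB' : B' ≤ H)
    (hA : A ≤ normalizer (B' : Set X)) (hq : ⁅B', ⁅B', E⁆⁆ ≤ Z) (hsq : ∀ b ∈ B, b * b = 1)
    (hn : ¬ B ≤ cz E Z)
    (h0 : B ⊓ cz E Z ≤ B₀) (hZ : Z ≤ E₀) (hE₀ : E₀ ≤ E) (hc : ⁅B, E₀⁆ ≤ Z) :
    B₀.relIndex B ^ 2 < E₀.relIndex E := by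
  obtain ⟨V, _, _, _, ⟨s⟩⟩ := exists_sec h.supE h.supZ h.le h.nZ h.sq
  have hs0 : Group.IsSolvable (s.im H) := by
    rw [← im_secRes s le_sup_left le_rfl]; exact Core.isSolvable_map _ _
  obtain ⟨F, f1, f3, f4, f5, f6⟩ := M1.exists_fit' hs0 (h.red V s)
  have hF : Red (s.im H) F := ⟨f1, le_normalizer.trans f3, f4, f5, f6⟩
  have AF := (s.im_le_normalizer h.AH).trans f3
  have hO := n.noOm H E Z V s F hH hE h.AH f1 AF f4 f5
  obtain ⟨k, a, d, t, h1, h2⟩ := h.td s hF (hB.trans hB') hsq h0 hZ hE₀ hc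
  have hq' : cmS ⊤ (s.im B') ≤ fxS (s.im B') := cmS_le_iff.2 fun x hx w _ => mem_fxS.2 fun y hy => by
    obtain ⟨g, hg, hL, rfl⟩ := s.mem_im.1 hx
    obtain ⟨g', hg', hL', rfl⟩ := s.mem_im.1 hy
    obtain ⟨e, he, rfl⟩ := s.surj w
    rw [← dl_apply, s.dl_π hL he]
    exact (s.ρ_π_eq_iff hL' (s.commutator_mem hL he)).2
      (hq (commutator_mem_commutator hg' (commutator_mem_commutator hg he)))
  have qh : QH F (s.im B') := ⟨f4, f5, (s.im_mono hB').trans hF.norm, hO, hq'⟩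
  have hk : 0 < k := Nat.pos_of_ne_zero fun e => hn fun b hb => by
    have := t.card
    rw [e, pow_zero, card_eq_one] at this
    exact (h.ρ_eq_one s (hB' (hB hb))).1
      (mem_bot.1 (this ▸ s.ρ_mem_im hb (mem_sup_left (hB' (hB hb)))))
  have g2 : 2 ∣ Nat.card G := by
    obtain ⟨b, hb, b1⟩ := SetLike.not_le_iff_exists.1 hn
    rw [← orderOf_eq_prime (x := b) (p := 2) (by rw [pow_two, hsq b hb]) fun e => b1 (e ▸ one_mem _)]
    exact G.orderOf_dvd_natCard (hH (hB' (hB hb)))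
  have h3 : ∀ x ∈ s.im B, x ≠ 1 → 3 ≤ finrank (ZMod 2) (cm ⊤ x) := fun x hx x1 => by
    by_contra hcon
    exact (n.ln g2 s hH hE h.AH).quad qh f1 (s.im_mono hB') AF (s.im_le_normalizer hA)
      (red_faithful hF (s.im_mono hB') fun _ => qh.sq) ⟨s.im_mono hB hx, x1, by omega⟩
  have := lin_q3 t hO ((cmS_le_iff.2 fun x hx w _ => mem_fxS.2 fun y hy =>
    mem_fxS.1 (cmS_le_iff.1 hq' x (s.im_mono hB hx) w trivial) y (s.im_mono hB hy))) hk h3
  calc _ ≤ (2 ^ k) ^ 2 := Nat.pow_le_pow_left h1 2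
    _ < 2 ^ _ := by rw [← pow_mul]; exact Nat.pow_lt_pow_right (by norm_num) (by omega)
    _ ≤ _ := h2

theorem NC.vv (n : NC A G) (hS : IsSylowIn 2 S G) (hA : A ≤ normalizer (S : Set X))
    (hs : Group.IsSolvable (G ⊓ normalizer (thompsonSubgroupOf 2 S : Set X) : Subgroup X)) :
    VV A S (vv G S) := by
  have hx := sx_vv hS n.AG hA
  have hSL : S ≤ G ⊓ normalizer (thompsonSubgroupOf 2 S : Set X) :=
    le_inf hS.le (le_normalizer.trans (PLocal.normalizer_le_normalizer_thompsonSubgroupOf S))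
  have hVS : Cop.vv G S ≤ S := (vv_le_zJ hS.isPGroup).trans
    ((omegaZ_le _).trans (PLocal.thompsonSubgroupOf_le S))
  have hcz : cz (Cop.vv G S) ⊥ ≤ centralizer (Cop.vv G S : Set X) := fun g hg e he =>
    (commutatorElement_eq_one_iff_mul_comm.1 (mem_bot.1 (hg.2.2 e he))).symm
  have hc : ∀ B : Subgroup X, ⁅B, Cop.vv G S ⊓ centralizer (B : Set X)⁆ ≤ ⊥ := fun B =>
    commutator_le.2 fun b hb e he =>
      mem_bot.2 (commutatorElement_eq_one_iff_mul_comm.2 (he.2 b hb))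
  refine ⟨hVS, normalizer_le_vv (hS.le.trans le_normalizer) le_normalizer, hx.AE,
    fun v hv => mem_bot.1 (hx.sq v hv), fun B hB hsq => ?_, fun B B' hB hB' hA' hq hsq hn => ?_⟩
  · have := hx.q2 n.noOm inf_le_left (hVS.trans hS.le) hs (hB.trans hSL) hsq
      (inf_le_right.trans hcz) bot_le inf_le_left (hc B)
    rwa [inf_relIndex_left] at this
  · have := n.q3 hx inf_le_left (hVS.trans hS.le) hs hB (hB'.trans hSL) hA'
      (commutator_le.2 fun b hb e he =>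
        mem_bot.2 (commutatorElement_eq_one_iff_mul_comm.2 (hq he b hb))) hsq
      (fun h => hn (h.trans hcz)) (inf_le_right.trans hcz) bot_le inf_le_left (hc B)
    rwa [inf_relIndex_left] at this

end CfsgLib.CNil
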