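import Cfsg.Agent.Lib.Cop.S1

/-! Transvections on invariant elementary abelian subgroups. -/

set_option autoImplicit false

open Subgroup Cfsg CfsgLib.LAE CfsgLib.ZN CfsgLib.MinS CfsgLib.Cop
open scoped commutatorElement

universe u

namespace CfsgLib.CNil

variable {X : Type u} [Group X] [Finite X] {A G H U E Z : Subgroup X}

/-- A transvection centralizes every reduced section. -/
theorem tr_cz (h : Sx A H E Z) (ho : NoOm A G) (hH : H ≤ G) (hE : E ≤ G) (hs : Group.IsSolvable H)
    (EU : E ≤ U) {b : X} (hb : b ∈ H) (b2 : b * b = 1)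
    (hi : (centralizer {b}).relIndex U ≤ 3) : b ∈ cz E Z := by
  by_contra hn
  have o2 : orderOf b = 2 := orderOf_eq_prime (by rw [sq, b2]) fun e => hn (e ▸ one_mem _)
  have m : ∀ x ∈ zpowers b, x = 1 ∨ x = b := fun x hx => by
    obtain ⟨n, rfl⟩ := mem_zpowers_iff.1 hx
    have e : b ^ (2 : ℤ) = 1 := by rw [zpow_two, b2]
    rcases Int.even_or_odd' n with ⟨k, rfl | rfl⟩
    · left; rw [zpow_mul, e, one_zpow]
    · right; rw [zpow_add, zpow_mul, e, one_zpow, one_mul, zpow_one]
  have nZ : E ⊓ centralizer {b} ≤ normalizer (Z : Set X) := inf_le_left.trans h.nZ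
  have := h.q2 ho hH hE hs (B := zpowers b) (B₀ := ⊥) (E₀ := Z ⊔ (E ⊓ centralizer {b}))
    (zpowers_le.2 hb) (fun x hx => by rcases m x hx with rfl | rfl; exacts [mul_one _, b2])
    (fun x hx => by
      rcases m x hx.1 with rfl | rfl
      exacts [one_mem _, absurd hx.2 hn]) le_sup_left (sup_le h.le inf_le_left)
    (commutator_le.2 fun x hx e he => by
      obtain ⟨z, hz, c, hc, rfl⟩ := (mem_sup_iff_of_right_le_normalizer nZ).1 he
      rcases m x hx with rfl | rfl
      · simp
      · rw [show ⁅x, z * c⁆ = x * z * x⁻¹ * (x * c * x⁻¹ * c⁻¹) * z⁻¹ by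
          simp only [commutatorElement_def]; group,
          ← mem_centralizer_singleton_iff.1 hc.2, mul_inv_cancel_right, mul_inv_cancel, mul_one]
        exact Z.mul_mem (conj_mem_of_mem_normalizer (h.HZ hb) hz) (Z.inv_mem hz))
  rw [relIndex_bot_left, Nat.card_zpowers, o2] at this
  have h1 : (Z ⊔ (E ⊓ centralizer {b})).relIndex E ≤ (E ⊓ centralizer {b}).relIndex E :=
    relIndex_le_of_le_left le_sup_right index_ne_zero_of_finite
  rw [inf_relIndex_left] at h1
  have h2 : (centralizer {b}).relIndex E ≤ (centralizer {b}).relIndex U :=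
    relIndex_le_of_le_right EU index_ne_zero_of_finite
  omega

/-- Two transvections on an invariant elementary abelian subgroup with a solvable normalizer
generate a `2`-group of automorphisms. -/
theorem tr_two (ho : NoOm A G) (hG : A ≤ normalizer (G : Set X)) (hU : U ≤ G)
    (sq : ∀ u ∈ U, u * u = 1) (AU : A ≤ normalizer (U : Set X))
    (hs : Group.IsSolvable (G ⊓ normalizer (U : Set X) : Subgroup X)) {b b' : X}
    (hb : b ∈ G ⊓ normalizer (U : Set X)) (hb' : b' ∈ G ⊓ normalizer (U : Set X))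
    (b2 : b * b = 1) (b2' : b' * b' = 1) (hi : (centralizer {b}).relIndex U ≤ 3)
    (hi' : (centralizer {b'}).relIndex U ≤ 3) :
    ∃ n : ℕ, (b * b') ^ 2 ^ n ∈ centralizer (U : Set X) := by
  have : Fact (Nat.Prime 2) := ⟨Nat.prime_two⟩
  have AN : A ≤ normalizer ((G ⊓ normalizer (U : Set X) : Subgroup X) : Set X) :=
    le_normalizer_inf hG (AU.trans (normalizer_le_normalizer_normalizer _))
  set R := zpowers b ⊔ zpowers b' with hR
  have RN : R ≤ G ⊓ normalizer (U : Set X) := sup_le (zpowers_le.2 hb) (zpowers_le.2 hb')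
  set H := U ⊔ nclIn R A with hH
  have HN : H ≤ G ⊓ normalizer (U : Set X) :=
    sup_le (le_inf hU le_normalizer) (nclIn_le RN AN)
  have RH : R ≤ H := (le_nclIn R A).trans le_sup_right
  have AH : A ≤ normalizer (H : Set X) := le_normalizer_sup AU (le_normalizer_nclIn R A)
  have m1 : b ∈ H := RH (mem_sup_left (mem_zpowers b))
  have m2 : b' ∈ H := RH (mem_sup_right (mem_zpowers b'))
  have key : ⁅pResOf 2 H, U⁆ ≤ ⊥ := by
    by_contra hn
    obtain ⟨Z, E, -, EU, s, hne⟩ := exists_chief (A := A) (M1.isPGroup_of_sq sq) le_sup_left AH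
      (HN.trans inf_le_right) AU bot_le le_normalizer_of_normal le_normalizer_of_normal hn
    have hs' : Group.IsSolvable H :=
      Group.isSolvable_of_isSolvable_injective (inclusion_injective HN)
    have t := fun {c : X} => tr_cz (b := c) s ho (HN.trans inf_le_left) (EU.trans hU) hs' EU
    have : H ≤ cz E Z := sup_le (le_cz_iff.2 ⟨le_sup_left.trans s.HE, le_sup_left.trans s.HZ,
      commutator_le.2 fun x hx e he => by
        rw [commutatorElement_eq_one_iff_mul_comm.2 (M1.comm_of_sq sq hx (EU he))]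
        exact one_mem _⟩)
      (nclIn_le (sup_le (zpowers_le.2 (t m1 b2 hi)) (zpowers_le.2 (t m2 b2' hi')))
        (le_normalizer_cz s.AE s.AZ))
    exact hne ((commutator_mono ((pResOf_le H).trans this) le_rfl).trans (le_cz_iff.1 le_rfl).2.2)
  obtain ⟨n, hn⟩ := exists_pow_mem_pResOf (p := 2) (H.mul_mem m1 m2)
  exact ⟨n, commutator_eq_bot_iff_le_centralizer.1 (le_bot_iff.1 key) hn⟩

end CfsgLib.CNil
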